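import Cfsg.Agent.Lib.InvCentralizers.AutChev.OutGroup
import Cfsg.Agent.Lib.Twisted.GraphAut
import Cfsg.Agent.S1098
import Cfsg.Agent.S1099

/-!
The diagram symmetries realised by automorphisms, type by type.
-/

set_option autoImplicit false
set_option linter.unusedSectionVars false
set_option linter.unusedSimpArgs false
set_option linter.style.haveILetI false

namespace CfsgLib.InvCentralizers.AutChev

open Cfsg.Lie CfsgLib.Chevalley

variable {D : ChevalleyDatum} {A : Aux} {F : Type*} [Field F]

/-- The adjacency-preserving injective placements of the first `k` nodes. -/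
def exts (D : ChevalleyDatum) : ℕ → List (List ℕ)
  | 0 => [[]]
  | k + 1 => (exts D k).flatMap fun l =>
      ((List.range D.rank).filter fun j => !l.elem j && (List.range k).all fun m =>
        (D.cartan m (D.simple k) == 0) == (D.cartan (l.getD m 0) (D.simple j) == 0)).map
        fun j => l ++ [j]

/-- The images of the nodes under a permutation, as a list. -/
def imgList (π : Equiv.Perm (Fin D.rank)) : List ℕ := List.ofFn fun i => ((π i : Fin D.rank) : ℕ)

theorem imgList_injective : Function.Injective (imgList (D := D)) := fun a b e =>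
  Equiv.ext fun i => Fin.ext (congrFun (List.ofFn_injective e) i)

theorem take_imgList_mem (π : Equiv.Perm (Fin D.rank))
    (hπ : ∀ i j : Fin D.rank, i ≠ j →
      (D.cartan i (D.simple j) = 0 ↔ D.cartan (π i) (D.simple (π j)) = 0)) :
    ∀ k ≤ D.rank, (imgList π).take k ∈ exts D k := by
  intro k
  induction k with
  | zero => intro _; simp [exts]
  | succ k ih =>
    intro hk
    simp only [exts, List.mem_flatMap, List.mem_map, List.mem_filter, List.mem_range]
    refine ⟨_, ih (by omega), ((π ⟨k, by omega⟩ : Fin D.rank) : ℕ), ⟨(π _).isLt, ?_⟩, ?_⟩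
    · rw [Bool.and_eq_true, Bool.not_eq_true', List.all_eq_true]
      refine ⟨?_, fun m hm => ?_⟩
      · rw [Bool.eq_false_iff]
        intro hmem
        rw [List.elem_iff, List.mem_take_iff_getElem] at hmem
        obtain ⟨m, hm, e⟩ := hmem
        simp only [imgList, List.getElem_ofFn] at e
        have hmk : m < k := lt_of_lt_of_le hm (min_le_left _ _)
        have := congrArg Fin.val (π.injective (Fin.ext e))
        simp at this
        omega
      · rw [List.mem_range] at hm
        rw [beq_iff_eq]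
        have e : ((imgList π).take k).getD m 0 = ((π ⟨m, by omega⟩ : Fin D.rank) : ℕ) := by
          rw [List.getD_eq_getElem _ _ (by simp [imgList]; omega)]
          simp [imgList]
        rw [e, Bool.eq_iff_iff, beq_iff_eq, beq_iff_eq]
        exact hπ ⟨m, by omega⟩ ⟨k, by omega⟩ fun e' => by
          have := congrArg Fin.val e'
          simp at this
          omega
    · rw [List.take_add_one]
      have e : (imgList π)[k]? = some ((π ⟨k, by omega⟩ : Fin D.rank) : ℕ) := by
        rw [List.getElem?_eq_getElem (by simp [imgList]; omega)]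
        simp [imgList]
      rw [e]
      rfl

theorem imgList_mem (h : Full D A) {π : Equiv.Perm (Fin D.rank)}
    (hπ : π ∈ (piHom h F).range) : imgList π ∈ exts D D.rank := by
  obtain ⟨s, rfl⟩ := hπ
  obtain ⟨σ, S⟩ := exists_stdMap h s
  have := take_imgList_mem _ (fun i j hij => S.adj h hij) D.rank le_rfl
  rwa [List.take_of_length_le (by simp [imgList])] at this

theorem card_range_le (h : Full D A) :
    Nat.card (piHom h F).range ≤ (exts D D.rank).length := by
  classical
  refine le_trans (Nat.card_le_card_of_injective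
    (fun π : (piHom h F).range => (⟨imgList π.1, List.mem_toFinset.2 (imgList_mem h π.2)⟩ :
      {x // x ∈ (exts D D.rank).toFinset}))
    (fun a b e => Subtype.ext (imgList_injective (congrArg Subtype.val e)))) ?_
  rw [Nat.card_eq_fintype_card, Fintype.card_coe]
  exact List.toFinset_card_le _

theorem exts_lengths :
    (exts chevG2 chevG2.rank).length = 2 ∧ (exts chevB2 chevB2.rank).length = 2 ∧
    (exts chevD4 chevD4.rank).length = 6 ∧ (exts chevF4 chevF4.rank).length = 2 ∧
    (exts chevE6 chevE6.rank).length = 2 ∧ (exts chevE7 chevE7.rank).length = 1 ∧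
    (exts chevE8 chevE8.rank).length = 1 := by decide +kernel

theorem card_range_eq_two {G : Type*} [Group G] {K : Subgroup G} [Finite K] {a : G} (ha : a ∈ K)
    (ha1 : a ≠ 1) (hle : Nat.card K ≤ 2) : Nat.card K = 2 := by
  have : Nontrivial K := ⟨⟨a, ha⟩, 1, fun e => ha1 (congrArg Subtype.val e)⟩
  have := Finite.one_lt_card (α := K)
  omega

theorem mem_range_of_aut (h : Full D A) (α : MulAut ↥(D.group F)) (π : Equiv.Perm (Fin D.rank))
    (σ : Fin D.rank → F ≃+* F) (S : StdMap h.cert α π σ) : π ∈ (piHom h F).range :=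
  ⟨⟨α, π, σ, S⟩, piHom_eq h S⟩

theorem card_range_E6 {A : Aux} (h : Full chevE6 A) :
    Nat.card (piHom h F).range = 2 := by
  obtain ⟨α, hα⟩ := CfsgLib.Twisted.exists_graphAutE6 F
  let π : Equiv.Perm (Fin chevE6.rank) :=
    ⟨fun i => ⟨([5, 1, 4, 3, 2, 0] : List ℕ).getD i 0, by revert i; decide +kernel⟩,
      fun i => ⟨([5, 1, 4, 3, 2, 0] : List ℕ).getD i 0, by revert i; decide +kernel⟩,
      by decide +kernel, by decide +kernel⟩
  have S : StdMap h.cert α π fun _ => RingEquiv.refl F := ⟨⟨fun i t => (eq_xE_iff h.cert).1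
    ((hα _ i t i.isLt).1 rfl), fun i t => (eq_xE_iff h.cert).1 ((hα _ i t i.isLt).2 rfl)⟩⟩
  refine card_range_eq_two (mem_range_of_aut h α π _ S) (fun e => ?_)
    ((card_range_le h).trans_eq exts_lengths.2.2.2.2.1)
  have h0 : 0 < chevE6.rank := by decide
  have := congrArg (fun p : Equiv.Perm (Fin chevE6.rank) => ((p ⟨0, h0⟩ : Fin chevE6.rank) : ℕ)) e
  simp [π] at this

/-- The swap of the two nodes. -/
def swapTwo {D : ChevalleyDatum} (hrk : D.rank = 2) : Equiv.Perm (Fin D.rank) :=
  Equiv.swap ⟨0, by omega⟩ ⟨1, by omega⟩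

/-- The reversal of the diagram of `F₄`. -/
def revF4 : Equiv.Perm (Fin chevF4.rank) :=
  ⟨fun i => ⟨3 - i, by revert i; decide +kernel⟩, fun i => ⟨3 - i, by revert i; decide +kernel⟩,
    by decide +kernel, by decide +kernel⟩

theorem frob_spec (p : ℕ) [Fact p.Prime] [CharP F p] [Finite F] :
    ∃ φ : F ≃+* F, ∀ t : F, φ t = t ^ p :=
  ⟨RingEquiv.ofBijective (frobenius F p) ⟨frobenius_inj F p,
    Finite.injective_iff_surjective.1 (frobenius_inj F p)⟩, fun _ => rfl⟩

theorem card_range_G2_three {A : Aux} (h : Full chevG2 A) [Finite F] [CharP F 3] :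
    Nat.card (piHom h F).range = 2 := by
  haveI : Fact (Nat.Prime 3) := ⟨Nat.prime_three⟩
  obtain ⟨φ, hφ⟩ := frob_spec (F := F) 3
  obtain ⟨α, hα⟩ := Cfsg.Agent.S1099.result (K := F) fun x => ⟨φ.symm x, by rw [← hφ]; simp⟩
  have hrk : chevG2.rank = 2 := by decide
  have hd : chevG2.simple 0 = g2a ∧ chevG2.simple 1 = g2b ∧
      chevG2.neg (chevG2.simple 0) = g2ma ∧ chevG2.neg (chevG2.simple 1) = g2mb := by decide +kernel
  obtain ⟨da, db, dma, dmb⟩ := hd
  let π := swapTwo hrk
  have S : StdMap h.cert α π fun i : Fin chevG2.rank =>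
      if (i : ℕ) = 0 then φ else RingEquiv.refl F := by
    have hsw : ∀ i : Fin chevG2.rank, ((π i : Fin chevG2.rank) : ℕ) = 1 - (i : ℕ) := by
      intro i
      rcases (by have := i.isLt; omega : (i : ℕ) = 0 ∨ (i : ℕ) = 1) with e | e
      · rw [show i = ⟨0, by omega⟩ from Fin.ext e]; simp [π, swapTwo]
      · rw [show i = ⟨1, by omega⟩ from Fin.ext e]; simp [π, swapTwo]
    refine ⟨⟨fun i t => ?_, fun i t => ?_⟩⟩ <;>
      rcases (by have := i.isLt; omega : (i : ℕ) = 0 ∨ (i : ℕ) = 1) with e | e <;>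
      simp only [hsw, e, if_true, if_neg (one_ne_zero), RingEquiv.refl_apply, hφ] <;>
      refine (eq_xE_iff h.cert).1 ?_
    · simp only [Nat.sub_zero, db]; exact (hα _ t).1 (by rw [← da]; rfl)
    · simp only [Nat.sub_self, da]; exact (hα _ t).2.1 (by rw [← db]; rfl)
    · simp only [Nat.sub_zero, dmb]; exact (hα _ t).2.2.1 (by rw [← dma]; rfl)
    · simp only [Nat.sub_self, dma]; exact (hα _ t).2.2.2 (by rw [← dmb]; rfl)
  refine card_range_eq_two (mem_range_of_aut h α π _ S) (fun e => ?_)
    ((card_range_le h).trans_eq exts_lengths.1)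
  have := congrArg (fun p : Equiv.Perm (Fin chevG2.rank) =>
    ((p ⟨0, by omega⟩ : Fin chevG2.rank) : ℕ)) e
  simp [π, swapTwo] at this

theorem card_range_F4_two {A : Aux} (h : Full chevF4 A) [Finite F] [CharP F 2] :
    Nat.card (piHom h F).range = 2 := by
  haveI : Fact (Nat.Prime 2) := ⟨Nat.prime_two⟩
  obtain ⟨φ, hφ⟩ := frob_spec (F := F) 2
  obtain ⟨α, hα⟩ := Cfsg.Agent.S1098.result (K := F) (fun x => ⟨φ.symm x, by rw [← hφ]; simp⟩)
    (chevF4, [(3, 2), (2, 2), (1, 1), (0, 1)]) (by simp)
  have hrk : chevF4.rank = 4 := by decide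
  have S : StdMap h.cert α revF4 fun i : Fin chevF4.rank =>
      if (i : ℕ) < 2 then φ else RingEquiv.refl F := by
    have hrev : ∀ i : Fin chevF4.rank, ((revF4 i : Fin chevF4.rank) : ℕ) = 3 - (i : ℕ) := fun i => rfl
    refine ⟨⟨fun i t => ?_, fun i t => ?_⟩⟩ <;>
      refine (eq_xE_iff h.cert).1 ?_ <;>
      rcases (by have := i.isLt; omega : (i : ℕ) = 0 ∨ (i : ℕ) = 1 ∨ (i : ℕ) = 2 ∨ (i : ℕ) = 3)
        with e | e | e | e <;>
      simp only [hrev, e]
    · simpa [e, hφ] using (hα (xE h.cert (chevF4.simple i) t) i t i.isLt).1 rfl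
    · simpa [e, hφ] using (hα (xE h.cert (chevF4.simple i) t) i t i.isLt).1 rfl
    · simpa [e, hφ] using (hα (xE h.cert (chevF4.simple i) t) i t i.isLt).1 rfl
    · simpa [e, hφ] using (hα (xE h.cert (chevF4.simple i) t) i t i.isLt).1 rfl
    · simpa [e, hφ] using (hα (xE h.cert (chevF4.neg (chevF4.simple i)) t) i t i.isLt).2 rfl
    · simpa [e, hφ] using (hα (xE h.cert (chevF4.neg (chevF4.simple i)) t) i t i.isLt).2 rfl
    · simpa [e, hφ] using (hα (xE h.cert (chevF4.neg (chevF4.simple i)) t) i t i.isLt).2 rfl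
    · simpa [e, hφ] using (hα (xE h.cert (chevF4.neg (chevF4.simple i)) t) i t i.isLt).2 rfl
  refine card_range_eq_two (mem_range_of_aut h α revF4 _ S) (fun e => ?_)
    ((card_range_le h).trans_eq exts_lengths.2.2.2.1)
  have := congrArg (fun p : Equiv.Perm (Fin chevF4.rank) =>
    ((p ⟨0, by omega⟩ : Fin chevF4.rank) : ℕ)) e
  simp [revF4] at this

theorem square_or_cube {a b : F ≃+* F} {m : ℕ} (hm : m = 2 ∨ m = 3) (e : ∀ t, a t = b t ^ m) :
    (m = 2 ∧ (2 : F) = 0) ∨ (m = 3 ∧ ((3 : F) = 0 ∨ ∀ x : F, x * x = x)) := by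
  have hadd : ∀ x y : F, (x + y) ^ m = x ^ m + y ^ m := fun x y => by
    have hx : x = b (b.symm x) := (b.apply_symm_apply x).symm
    have hy : y = b (b.symm y) := (b.apply_symm_apply y).symm
    rw [hx, hy, ← map_add, ← e, ← e, ← e, map_add]
  have key := hadd 1 1
  rcases hm with rfl | rfl
  · exact Or.inl ⟨rfl, by linear_combination key⟩
  · refine Or.inr ⟨rfl, ?_⟩
    have h6 : (2 : F) * 3 = 0 := by linear_combination key
    rcases mul_eq_zero.1 h6 with h2 | h3
    · exact Or.inr fun x => by linear_combination hadd x 1 - (x ^ 2 + 2 * x) * h2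
    · exact Or.inl h3

theorem range_eq_bot {G : Type*} [Group G] {K : Subgroup G} (e : ∀ a ∈ K, a = 1) :
    Nat.card K = 1 := by
  rw [(Subgroup.eq_bot_iff_forall K).2 e, Subgroup.card_bot]

theorem card_range_G2_ne {A : Aux} (h : Full chevG2 A) [Fintype F] (h3 : (3 : F) ≠ 0)
    (hq : 3 ≤ Fintype.card F) : Nat.card (piHom h F).range = 1 := by
  refine range_eq_bot ?_
  rintro _ ⟨s, rfl⟩
  obtain ⟨σ, S⟩ := exists_stdMap h s
  have hrk : chevG2.rank = 2 := by decide
  let a : Fin chevG2.rank := ⟨0, by omega⟩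
  let b : Fin chevG2.rank := ⟨1, by omega⟩
  have hcover : ∀ i : Fin chevG2.rank, i = a ∨ i = b := fun i => by
    rcases (by have := i.isLt; omega : (i : ℕ) = 0 ∨ (i : ℕ) = 1) with e | e
    · exact Or.inl (Fin.ext e)
    · exact Or.inr (Fin.ext e)
  generalize piHom h F s = π at S
  have hab : a ≠ b := fun e => zero_ne_one (congrArg Fin.val e)
  rcases hcover (π a) with pa | pa
  · refine Equiv.ext fun i => ?_
    rcases hcover i with rfl | rfl
    · exact pa
    · exact (hcover (π b)).resolve_left fun hb => hab (π.injective (pa.trans hb.symm))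
  · exfalso
    have pb : π b = a := (hcover (π b)).resolve_right fun hb => hab (π.injective (pa.trans hb.symm))
    have e := fun (t : F) (ht : t ≠ 0) =>
      S.node.zpow_eq h (σ := σ) (fun _ => rfl) (fun _ => rfl) b a ht
    obtain ⟨-, g1, g2, -⟩ := two_data
    simp only [pa, pb, a, b, g1, g2] at e
    have hsa : ∀ t, σ a t = σ b t ^ 3 := fun t => by
      by_cases ht : t = 0
      · simp [ht]
      · simpa using e t ht
    rcases square_or_cube (m := 3) (Or.inr rfl) hsa with ⟨h2, -⟩ | ⟨-, h3' | hx⟩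
    · omega
    · exact h3 h3'
    · classical
      have : ∀ x : F, x = 0 ∨ x = 1 := fun x => by
        rcases mul_eq_zero.1 (show x * (x - 1) = 0 by linear_combination hx x) with e | e
        · exact Or.inl e
        · exact Or.inr (by linear_combination e)
      have hle : Fintype.card F ≤ 2 := by
        rw [← Finset.card_univ]
        refine le_trans (Finset.card_le_card (t := ({0, 1} : Finset F)) fun x _ => ?_) Finset.card_le_two
        simpa using this x
      omega

theorem card_range_F4_ne {A : Aux} (h : Full chevF4 A) (h2 : (2 : F) ≠ 0) :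
    Nat.card (piHom h F).range = 1 := by
  refine range_eq_bot ?_
  rintro _ ⟨s, rfl⟩
  obtain ⟨σ, S⟩ := exists_stdMap h s
  generalize piHom h F s = π at S
  obtain ⟨hrk, c10, c21, c32, c23, c12, c01, -, -, -, -⟩ := f4_data
  obtain ⟨hcase, -⟩ := f4_perms π fun i j hij => S.adj h hij
  rcases hcase with hid | hrev
  · exact Equiv.ext fun i => Fin.ext (hid i)
  · exfalso
    let b : Fin chevF4.rank := ⟨1, by omega⟩
    let c : Fin chevF4.rank := ⟨2, by omega⟩
    have e := fun (t : F) (ht : t ≠ 0) =>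
      S.node.zpow_eq h (σ := σ) (fun _ => rfl) (fun _ => rfl) c b ht
    simp only [hrev, b, c, c21, c12, show (3 - 1 : ℕ) = 2 from rfl, show (3 - 2 : ℕ) = 1 from rfl] at e
    rcases square_or_cube (m := 2) (Or.inl rfl) (eq_pow_of_zpow (m := 2) two_ne_zero e)
      with ⟨-, e2⟩ | ⟨e3, -⟩
    · exact h2 e2
    · omega

theorem card_range_E7 {A : Aux} (h : Full chevE7 A) : Nat.card (piHom h F).range = 1 := by
  have h1 := (card_range_le (F := F) h).trans_eq exts_lengths.2.2.2.2.2.1
  have h2 : 0 < Nat.card (piHom h F).range := Nat.card_pos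
  omega

theorem card_range_E8 {A : Aux} (h : Full chevE8 A) : Nat.card (piHom h F).range = 1 := by
  have h1 := (card_range_le (F := F) h).trans_eq exts_lengths.2.2.2.2.2.2
  have h2 : 0 < Nat.card (piHom h F).range := Nat.card_pos
  omega

end CfsgLib.InvCentralizers.AutChev
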